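import Cfsg.Agent.Lib.OmDeg.PlusCount
import Cfsg.Agent.Lib.Char.Central

/-!
The class of a long root element in the isometry group of the hyperbolic form.
-/

set_option autoImplicit false
set_option linter.unusedSectionVars false
set_option linter.unusedVariables false
set_option linter.unusedSimpArgs false
set_option linter.ambiguousOpen false

namespace Cfsg.Agent.Lib.OmDeg.PlusClass

open Matrix Module Cfsg Cfsg.Geo
open Cfsg.Agent.Lib.OmDeg.Alt Cfsg.Agent.Lib.OmDeg.Count Cfsg.Agent.Lib.OmDeg.Pairs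
open Cfsg.Agent.Lib.OmDeg.Wts Cfsg.Agent.Lib.OmDeg.Abs
open Cfsg.Agent.Lib.Geo.Basic Cfsg.Agent.Lib.Geo.QForm Cfsg.Agent.Lib.QuadFn
open Cfsg.Agent.Lib.GeoOmega.Basic Cfsg.Agent.Lib.GeoOmega.Eichler
open Cfsg.Agent.Lib.OmDeg.Plus Cfsg.Agent.Lib.OmDeg.PlusCount
open scoped _root_.Classical MatrixGroups

/-- The index of the trace of a subgroup on a normal subgroup divides its index. -/
theorem index_subgroupOf_dvd {O : Type*} [Group O] [Finite O] (N A : Subgroup O) [N.Normal] :
    (A.subgroupOf N).index ∣ A.index := by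
  have h1 : A.relIndex N * N.index = (A ⊓ N).index := by
    rw [← Subgroup.inf_relIndex_right]
    exact Subgroup.relIndex_mul_index inf_le_right
  have h2 : N.relIndex A * A.index = (A ⊓ N).index := by
    rw [← Subgroup.inf_relIndex_left]
    exact Subgroup.relIndex_mul_index inf_le_left
  have h3 : A.relIndex (A ⊔ N) * (A ⊔ N).index = A.index := Subgroup.relIndex_mul_index le_sup_left
  have h4 : N.relIndex (A ⊔ N) * (A ⊔ N).index = N.index := Subgroup.relIndex_mul_index le_sup_right
  rw [Subgroup.relIndex_sup_right] at h4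
  have hs : N.relIndex A ≠ 0 := by
    intro h
    rw [h, zero_mul] at h2
    exact Subgroup.index_ne_zero_of_finite h2.symm
  have hJ : (A ⊔ N).index ≠ 0 := Subgroup.index_ne_zero_of_finite
  have h5 : A.relIndex N = A.relIndex (A ⊔ N) := by
    apply Nat.eq_of_mul_eq_mul_left (Nat.pos_of_ne_zero (Nat.mul_ne_zero hs hJ))
    calc N.relIndex A * (A ⊔ N).index * A.relIndex N = A.relIndex N * (N.relIndex A * (A ⊔ N).index) := by ring
      _ = N.relIndex A * (A.relIndex (A ⊔ N) * (A ⊔ N).index) := by rw [h4, h1, ← h2, ← h3]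
      _ = _ := by ring
  show A.relIndex N ∣ A.index
  rw [h5, ← h3]
  exact dvd_mul_right _ _

/-- The centralizer in a subgroup. -/
theorem centralizer_subgroupOf {O : Type*} [Group O] (N : Subgroup O) (x : N) :
    Subgroup.centralizer ({x} : Set N) = (Subgroup.centralizer ({x.1} : Set O)).subgroupOf N := by
  ext g
  rw [Subgroup.mem_subgroupOf, Subgroup.mem_centralizer_singleton_iff, Subgroup.mem_centralizer_singleton_iff,
    Subtype.ext_iff]
  rfl

theorem index_centralizer_dvd {O : Type*} [Group O] [Finite O] (N : Subgroup O) [N.Normal] (x : N) :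
    (Subgroup.centralizer ({x} : Set N)).index ∣ (Subgroup.centralizer ({x.1} : Set O)).index := by
  rw [centralizer_subgroupOf]
  exact index_subgroupOf_dvd _ _

variable {F : Type*} [Field F] [Fintype F] {n : ℕ}

omit [Fintype F] in
lemma pol_eq_sw (v b : Fin n ⊕ Fin n → F) :
    pol (quadFormPlus n F) v b = (fun k => v k.swap) ⬝ᵥ b := by
  rw [pol_plus, dotProduct, Fintype.sum_sum_type, ← Finset.sum_add_distrib]
  refine Finset.sum_congr rfl fun i _ => ?_
  simp only [Sum.swap_inl, Sum.swap_inr]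
  ring

omit [Fintype F] in
/-- The form of an Eichler map in terms of the wedge. -/
lemma eich_iff_wedge {g : GL (Fin n ⊕ Fin n) F} {p b : Fin n ⊕ Fin n → F} (hb : quadFormPlus n F b = 0) :
    Eich (quadFormPlus n F) g p b ↔ ∀ v, g.1 *ᵥ v = v + wedge p b *ᵥ (fun k => v k.swap) := by
  refine forall_congr' fun v => ?_
  have e : v + pol (quadFormPlus n F) v b • p - pol (quadFormPlus n F) v p • b - (quadFormPlus n F b * pol (quadFormPlus n F) v p) • p =
      v + wedge p b *ᵥ (fun k => v k.swap) := by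
    rw [hb, pol_eq_sw, pol_eq_sw]
    funext i
    simp only [Pi.sub_apply, Pi.add_apply, Pi.smul_apply, smul_eq_mul, zero_mul, sub_zero, Matrix.mulVec, dotProduct,
      wedge_apply, Finset.sum_mul]
    rw [add_sub_assoc]
    congr 1
    rw [← Finset.sum_sub_distrib]
    refine Finset.sum_congr rfl fun j _ => ?_
    ring
  rw [e]

omit [Fintype F] in
/-- Two Eichler maps agree iff the wedges agree. -/
lemma eich_eq_iff {g g' : GL (Fin n ⊕ Fin n) F} {p b p' b' : Fin n ⊕ Fin n → F}
    (hb : quadFormPlus n F b = 0) (hb' : quadFormPlus n F b' = 0)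
    (h : Eich (quadFormPlus n F) g p b) (h' : Eich (quadFormPlus n F) g' p' b') :
    g = g' ↔ wedge p b = wedge p' b' := by
  rw [eich_iff_wedge hb] at h
  rw [eich_iff_wedge hb'] at h'
  constructor
  · rintro rfl
    rw [Matrix.ext_iff_mulVec]
    intro w
    have h1 := h (fun k => w k.swap)
    have h2 := h' (fun k => w k.swap)
    rw [h1] at h2
    have h3 := add_left_cancel h2
    simpa using h3
  · intro e
    apply Units.ext
    rw [Matrix.ext_iff_mulVec]
    intro v
    rw [h v, h' v, e]

omit [Fintype F] in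
lemma mem_PP_of_wedge [Fintype F] {u v u' v' : Fin n ⊕ Fin n → F} (h : (u, v) ∈ PP n F) (he : wedge u' v' = wedge u v) :
    (u', v') ∈ PP n F := by
  have hQ := nd_plus (n := n) (F := F)
  obtain ⟨h1, h2, h3, h4⟩ := mem_PP.1 h
  obtain ⟨a, b, c, d, hd, rfl, rfl⟩ := wedge_fiber h4 he
  refine mem_PP.2 ⟨?_, ?_, ?_, ?_⟩
  · show quadFormPlus n F (a • u + b • v) = 0
    rw [Q_smul_add hQ]
    simp only at h1 h2 h3
    rw [h1, h2, h3]
    ring
  · show quadFormPlus n F (c • u + d • v) = 0
    rw [Q_smul_add hQ]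
    simp only at h1 h2 h3
    rw [h1, h2, h3]
    ring
  · show pol (quadFormPlus n F) (a • u + b • v) (c • u + d • v) = 0
    simp only at h1 h2 h3
    rw [pol_add_left hQ, pol_add_right hQ, pol_add_right hQ, pol_smul_left hQ, pol_smul_left hQ,
      pol_smul_left hQ, pol_smul_left hQ, pol_smul_right hQ, pol_smul_right hQ, pol_smul_right hQ, pol_smul_right hQ, pol_singular hQ h1,
      pol_singular hQ h2, h3, pol_symm hQ v u, h3]
    ring
  · rw [he]
    exact h4

/-- The standard element. -/
def x00 (a b : Fin n) : isometryGroup F (quadFormPlus n F) :=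
  ⟨uGL (wedge (Pi.single a 1) (Pi.single b 1)), uGL_mem (wedge_isAlt _ _)⟩

/-- The class equation. -/
theorem class_count (hn : 2 ≤ n) {a b : Fin n} (hab : a ≠ b) :
    (Subgroup.centralizer ({x00 a b} : Set (isometryGroup F (quadFormPlus n F)))).index *
      (Fintype.card F * ((Fintype.card F - 1) * (Fintype.card F + 1))) = (PP n F).card := by
  have hQ := nd_plus (n := n) (F := F)
  set O := isometryGroup F (quadFormPlus n F) with hO
  let _ : Fintype O := Fintype.ofFinite _
  set x₀ : O := x00 a b with hx₀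
  have hp0 : quadFormPlus n F (ff (Pi.single a (1 : F))) = 0 := Q_ff _
  have hb0 : quadFormPlus n F (ff (Pi.single b (1 : F))) = 0 := Q_ff _
  have hx₀E : Eich (quadFormPlus n F) x₀.1 (ff (Pi.single a (1 : F))) (ff (Pi.single b (1 : F))) := eich_u _ _
  have hw0 : wedge (ff (Pi.single a (1 : F))) (ff (Pi.single b (1 : F))) ≠ 0 := by
    intro h
    have := congrFun (congrFun h (Sum.inr a)) (Sum.inr b)
    simp [Pi.single_apply, hab, hab.symm] at this
  have hex : ∀ x : (Fin n ⊕ Fin n → F) × (Fin n ⊕ Fin n → F), ∃ g : O, x ∈ PP n F → Eich (quadFormPlus n F) g.1 x.1 x.2 := by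
    intro x
    by_cases hx : x ∈ PP n F
    · obtain ⟨h1, h2, h3, h4⟩ := mem_PP.1 hx
      obtain ⟨g, hg⟩ := exists_eich hQ h1 h3
      exact ⟨⟨g, hg.mem_isometry hQ h1 h3⟩, fun _ => hg⟩
    · exact ⟨1, fun h => absurd h hx⟩
  choose Φ hΦ using hex
  rw [← Cfsg.Agent.Lib.Char.Central.card_filter_isConj x₀]
  set C : Finset O := Finset.univ.filter (fun y => IsConj x₀ y) with hC
  rw [Finset.card_eq_sum_card_fiberwise (f := Φ) (s := PP n F) (t := C)]
  · have hfib : ∀ y ∈ C, ((PP n F).filter (fun x => Φ x = y)).card =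
        Fintype.card F * ((Fintype.card F - 1) * (Fintype.card F + 1)) := by
      intro y hy
      simp only [hC, Finset.mem_filter, Finset.mem_univ, true_and] at hy
      obtain ⟨g, rfl⟩ := isConj_iff.1 hy
      set u := g.1.1 *ᵥ ff (Pi.single a (1 : F)) with hu
      set v := g.1.1 *ᵥ ff (Pi.single b (1 : F)) with hv
      have hE : Eich (quadFormPlus n F) (g * x₀ * g⁻¹).1 u v := hx₀E.conj g.2
      have hQu : quadFormPlus n F u = 0 := by
        rw [hu, (mem_isometryGroup_iff _ g.1).mp g.2, hp0]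
      have hQv : quadFormPlus n F v = 0 := by
        rw [hv, (mem_isometryGroup_iff _ g.1).mp g.2, hb0]
      have huv : pol (quadFormPlus n F) u v = 0 := by
        rw [hu, hv, pol_isometry _ g.2, pol_ff_ff]
      have hw : wedge u v ≠ 0 := by
        intro h0
        apply hw0
        have h1 := congrArg (act (g.1⁻¹).1) h0
        rw [← act_wedge, ← act_mul, ← Units.val_mul, inv_mul_cancel, Units.val_one, act_one] at h1
        rw [h1]
        simp [act]
      have hmem : (u, v) ∈ PP n F := mem_PP.2 ⟨hQu, hQv, huv, hw⟩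
      rw [← card_wedge_fiber hw]
      congr 1
      ext x
      simp only [Finset.mem_filter, Finset.mem_univ, true_and]
      constructor
      · rintro ⟨hx, hxy⟩
        have h1 := hΦ x hx
        have h2 := mem_PP.1 hx
        rw [hxy] at h1
        exact (eich_eq_iff h2.2.1 hQv h1 hE).1 rfl
      · intro hx
        have hxm : x ∈ PP n F := by
          have := mem_PP_of_wedge (u' := x.1) (v' := x.2) hmem hx
          simpa using this
        refine ⟨hxm, ?_⟩
        apply Subtype.ext
        exact (eich_eq_iff (mem_PP.1 hxm).2.1 hQv (hΦ x hxm) hE).2 hx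
    rw [Finset.sum_congr rfl hfib, Finset.sum_const, smul_eq_mul]
  · intro x hx
    have hx' := Finset.mem_coe.1 hx
    obtain ⟨h1, h2, h3, h4⟩ := mem_PP.1 hx'
    obtain ⟨g, hg, hgu, hgv⟩ := witt2 (F := F) hw0 h4 hp0 hb0 (pol_ff_ff _ _) h1 h2 h3
    simp only [hC, Finset.coe_filter, Finset.mem_univ, true_and, Set.mem_ofPred_eq]
    rw [isConj_iff]
    refine ⟨⟨g, hg⟩, ?_⟩
    apply Subtype.ext
    have hE : Eich (quadFormPlus n F) ((⟨g, hg⟩ * x₀ * (⟨g, hg⟩ : O)⁻¹ : O)).1 x.1 x.2 := by
      have := hx₀E.conj hg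
      rwa [hgu, hgv] at this
    exact Eich.unique' hE (hΦ x hx')

end Cfsg.Agent.Lib.OmDeg.PlusClass
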