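import Cfsg.Agent.Lib.OmDeg.Plus

/-!
Conjugacy of the root elements in `Ω⁺`, and the normal closure of the abelian unipotent subgroup.
-/

set_option autoImplicit false
set_option linter.unusedSectionVars false
set_option linter.unusedVariables false
set_option linter.unusedSimpArgs false
set_option linter.ambiguousOpen false

namespace Cfsg.Agent.Lib.OmDeg.PlusConj

open Matrix Module Cfsg Cfsg.Geo
open Cfsg.Agent.Lib.OmDeg.Alt Cfsg.Agent.Lib.OmDeg.Count Cfsg.Agent.Lib.OmDeg.Pairs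
open Cfsg.Agent.Lib.SLDeg.Tv
open Cfsg.Agent.Lib.OmDeg.Fam Cfsg.Agent.Lib.OmDeg.Wts Cfsg.Agent.Lib.OmDeg.Line Cfsg.Agent.Lib.OmDeg.Abs
open Cfsg.Agent.Lib.Geo.Basic Cfsg.Agent.Lib.Geo.QForm Cfsg.Agent.Lib.QuadFn
open Cfsg.Agent.Lib.GeoOmega.Basic Cfsg.Agent.Lib.GeoOmega.Eichler Cfsg.Agent.Lib.GeoOmega.Levi
open Cfsg.Agent.Lib.OmDeg.Plus Cfsg.Agent.Lib.Orth.Levi
open scoped _root_.Classical MatrixGroups

variable {F : Type*} [Field F] {n : ℕ}

/-- The vector of the swap. -/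
def vv (a : Fin n) : Fin n ⊕ Fin n → F := ee (Pi.single a 1) - ff (Pi.single a 1)

lemma Q_vv (a : Fin n) : quadFormPlus n F (vv a) = -1 := by
  simp [vv, quadFormPlus, Pi.single_apply]

lemma pol_ee_vv (x : Fin n → F) (a : Fin n) : pol (quadFormPlus n F) (ee x) (vv a) = - x a := by
  rw [pol_plus]
  simp [vv, Pi.single_apply]

lemma pol_ff_vv (x : Fin n → F) (a : Fin n) : pol (quadFormPlus n F) (ff x) (vv a) = x a := by
  rw [pol_plus]
  simp [vv, Pi.single_apply]

/-- The swap as a matrix. -/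
noncomputable def rr' (a : Fin n) : GL (Fin n ⊕ Fin n) F := rf nd_plus (vv a)

lemma rr'_ee (a : Fin n) (x : Fin n → F) : (rr' a).1 *ᵥ ee x = ee x - x a • vv a := by
  rw [rr', rf_mulVec, Q_vv, pol_ee_vv]
  simp

lemma rr'_ff (a : Fin n) (x : Fin n → F) : (rr' a).1 *ᵥ ff x = ff x + x a • vv a := by
  rw [rr', rf_mulVec, Q_vv, pol_ff_vv]
  simp [sub_eq_add_neg]

lemma rr'_ee_self (a : Fin n) : (rr' a).1 *ᵥ ee (Pi.single a (1 : F)) = ff (Pi.single a 1) := by
  rw [rr'_ee, vv]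
  simp

lemma rr'_ee_ne {a : Fin n} {x : Fin n → F} (h : x a = 0) : (rr' a).1 *ᵥ ee x = ee x := by
  rw [rr'_ee, h]
  simp

lemma rr'_ff_ne {a : Fin n} {x : Fin n → F} (h : x a = 0) : (rr' a).1 *ᵥ ff x = ff x := by
  rw [rr'_ff, h]
  simp

/-- The product of two swaps. -/
noncomputable def r2 (a c : Fin n) : GL (Fin n ⊕ Fin n) F := rr' a * rr' c

lemma r2_mem [Fintype F] (hn : 4 ≤ n) (a c : Fin n) : r2 (F := F) a c ∈ omegaGL (quadFormPlus n F) := by
  apply rf_mul_mem_omega nd_plus (by simp; omega) (Q_vv c) (Q_vv a) (by simp)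

lemma r2_mulVec (a c : Fin n) (v : Fin n ⊕ Fin n → F) : (r2 a c).1 *ᵥ v = (rr' a).1 *ᵥ ((rr' c).1 *ᵥ v) := by
  rw [r2, Units.val_mul, Matrix.mulVec_mulVec]

section

variable [Fintype F]

/-- An element of `omegaGL` as an element of `Ω`. -/
lemma exists_omega {g : GL (Fin n ⊕ Fin n) F} (h : g ∈ omegaGL (quadFormPlus n F)) :
    ∃ x : Omega F (quadFormPlus n F), x.1.1 = g := by
  obtain ⟨x, hx, rfl⟩ := h
  exact ⟨⟨x, hx⟩, rfl⟩

/-- The root elements are conjugate. -/
theorem conj_root (hq : 3 < Fintype.card F) (hn : 4 ≤ n) {a b c : Fin n} (hab : a ≠ b) (hac : a ≠ c) (hbc : b ≠ c) :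
    IsConj ((plusSD hq (by omega : 1 ≤ n)).l (gS (gt a b 1))) ((plusSD hq (by omega : 1 ≤ n)).u (x0 a b)) := by
  obtain ⟨x, hx⟩ := exists_omega (r2_mem (F := F) hn a c)
  rw [isConj_iff]
  refine ⟨x, ?_⟩
  apply Subtype.ext
  apply Subtype.ext
  show x.1.1 * ((levi (SpecialLinearGroup.toGL (gt a b (1 : F))) : isometryGroup F (quadFormPlus n F)) : GL _ F) * (x.1.1)⁻¹ =
    uGL (wedge (Pi.single a 1) (Pi.single b 1))
  rw [hx]
  have e1 : gt a b (1 : F) = tv (Pi.single a 1) (Pi.single b 1) (by simp [hab.symm]) :=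
    coe_ext (by rw [gt_coe hab, tv_coe, one_smul])
  have h1 := eich_levi (F := F) (Pi.single a 1) (Pi.single b 1) (by simp [hab.symm])
  rw [← e1] at h1
  have hI : r2 a c ∈ isometryGroup F (quadFormPlus n F) := omegaGL_le_isometryGroup _ (r2_mem hn a c)
  have h2 := h1.conj hI
  have h3 : (r2 a c).1 *ᵥ ee (Pi.single a (1 : F)) = ff (Pi.single a 1) := by
    rw [r2_mulVec, rr'_ee_ne (by simp [hac]), rr'_ee_self]
  have h4 : (r2 a c).1 *ᵥ ff (Pi.single b (1 : F)) = ff (Pi.single b 1) := by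
    rw [r2_mulVec, rr'_ff_ne (by simp [hbc.symm]), rr'_ff_ne (by simp [hab])]
  rw [h3, h4] at h2
  exact Eich.unique' h2 (eich_u _ _)

end

section Triv

variable [Fintype F] {V : Type*} [AddCommGroup V] [Module ℂ V]

/-- A representation trivial on the abelian unipotent subgroup is trivial. -/
theorem triv_of_u (hq : 3 < Fintype.card F) (hn : 4 ≤ n) {a b c : Fin n} (hab : a ≠ b) (hac : a ≠ c) (hbc : b ≠ c)
    (ρ : Representation ℂ (Omega F (quadFormPlus n F)) V)
    (h : ∀ X, ρ ((plusSD hq (by omega : 1 ≤ n)).u X) = 1) (g : Omega F (quadFormPlus n F)) : ρ g = 1 := by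
  set sd := plusSD (F := F) hq (by omega : 1 ≤ n) with hsd
  have h3 : 3 ≤ Fintype.card (Fin n) := by simp; omega
  have : Nontrivial (Fin n) := Fintype.one_lt_card_iff_nontrivial.1 (by omega)
  -- the special linear group acts trivially
  have hroot : ρ (sd.l (gS (gt a b 1))) = 1 := by
    obtain ⟨r, hr⟩ := isConj_iff.1 (conj_root hq hn hab hac hbc)
    have h1 : ρ (r * sd.l (gS (gt a b 1)) * r⁻¹) = 1 := by
      have : r * sd.l (gS (gt a b 1)) * r⁻¹ = sd.u (x0 a b) := hr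
      rw [this, h]
    rw [map_mul, map_mul] at h1
    have h2 : ρ r * ρ (sd.l (gS (gt a b 1))) = ρ r := by
      have h4 : ρ r⁻¹ * ρ r = 1 := by rw [← map_mul, inv_mul_cancel, map_one]
      calc ρ r * ρ (sd.l (gS (gt a b 1))) = (ρ r * ρ (sd.l (gS (gt a b 1))) * ρ r⁻¹) * ρ r := by
            rw [mul_assoc, mul_assoc, h4, mul_one]
        _ = ρ r := by rw [h1, one_mul]
    have h5 : ρ r⁻¹ * ρ r = 1 := by rw [← map_mul, inv_mul_cancel, map_one]
    calc ρ (sd.l (gS (gt a b 1))) = ρ r⁻¹ * (ρ r * ρ (sd.l (gS (gt a b 1)))) := by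
          rw [← mul_assoc, h5, one_mul]
      _ = 1 := by rw [h2, h5]
  let R₀ : SpecialLinearGroup (Fin n) F →* Module.End ℂ V := ρ.comp (sd.l.comp gS)
  have hR : ∀ g, R₀ g = 1 := by
    intro g
    refine eq_one_of_tv R₀ (fun x y hxy => ?_) g
    by_cases hx : x = 0
    · subst hx
      rw [tv_zero_left, map_one]
    by_cases hy : y = 0
    · subst hy
      rw [tv_zero_right, map_one]
    have hsa : (Pi.single a (1 : F) : Fin n → F) ≠ 0 := by
      intro h0
      have := congrFun h0 a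
      simp at this
    have hsb : (Pi.single b (1 : F) : Fin n → F) ≠ 0 := by
      intro h0
      have := congrFun h0 b
      simp at this
    have e1 : gt a b (1 : F) = tv (Pi.single a 1) (Pi.single b 1) (by simp [hab.symm]) :=
      coe_ext (by rw [gt_coe hab, tv_coe, one_smul])
    have hconj := tv_isConj h3 (a := Pi.single a 1) (b := Pi.single b 1) (a' := x) (b' := y)
      (by simp [hab.symm]) hxy hsa hsb hx hy
    obtain ⟨r, hr⟩ := isConj_iff.1 hconj
    rw [← hr, ← e1]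
    have h5 : R₀ (gt a b 1) = 1 := hroot
    rw [map_mul, map_mul, h5, mul_one, ← map_mul, mul_inv_cancel, map_one]
  -- the subgroup of `GL`
  let K : Subgroup (Omega F (quadFormPlus n F)) := (ρ : _ →* Module.End ℂ V).ker
  let M : Subgroup (GL (Fin n ⊕ Fin n) F) :=
    (K.map (Subgroup.subtype _)).map (isometryGroup F (quadFormPlus n F)).subtype
  have hMem : ∀ y : Omega F (quadFormPlus n F), ρ y = 1 → y.1.1 ∈ M := by
    intro y hy
    exact ⟨y.1, ⟨y, hy, rfl⟩, rfl⟩
  have hMem' : ∀ z ∈ M, ∃ y : Omega F (quadFormPlus n F), ρ y = 1 ∧ y.1.1 = z := by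
    rintro _ ⟨_, ⟨y, hy, rfl⟩, rfl⟩
    exact ⟨y, hy, rfl⟩
  have hQ := nd_plus (n := n) (F := F)
  have hsa : quadFormPlus n F (ff (Pi.single a 1)) = 0 := Q_ff _
  have hsa' : quadFormPlus n F (ee (Pi.single a 1)) = 0 := Q_ee _
  -- full at the first centre
  have hF1 : Full (quadFormPlus n F) M (ff (Pi.single a 1)) := by
    intro y g' hy hg'
    have hx0 : y (Sum.inl a) = 0 := by
      rw [pol_symm hQ, pol_ff] at hy
      simpa [Pi.single_apply] using hy
    let x : Fin n → F := y ∘ Sum.inl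
    let z : Fin n → F := y ∘ Sum.inr
    have hy2 : y = ee x + ff z := by
      funext k
      rcases k with i | i <;> simp [x, z]
    have hxa : (Pi.single a (1 : F) : Fin n → F) ⬝ᵥ (-x) = 0 := by
      simp [x, hx0]
    -- the element of the Levi group
    have h1 := eich_levi (F := F) (-x) (Pi.single a 1) hxa
    have h1' : Eich (quadFormPlus n F) ((levi (SpecialLinearGroup.toGL (tv (-x) (Pi.single a 1) hxa)) :
        isometryGroup F (quadFormPlus n F)) : GL _ F) (ff (Pi.single a 1)) (ee x) := by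
      intro v
      rw [h1 v, Q_ff, Q_ee]
      have e2 : ee (-x) = -ee x := by
        funext k
        rcases k with i | i <;> simp
      rw [e2, pol_neg_right hQ]
      module
    have h2 := eich_u (F := F) (Pi.single a 1) z
    have h3 := h1'.mul hQ h2 hsa (by
      rw [pol_ff_ee]
      have hxa' : x a = 0 := hx0
      simpa [Pi.single_apply] using hxa') (pol_ff_ff _ _)
    rw [← hy2] at h3
    rw [Eich.unique' hg' h3]
    refine M.mul_mem ?_ ?_
    · exact hMem (sd.l (gS (tv (-x) (Pi.single a 1) hxa))) (hR _)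
    · exact hMem (sd.u ⟨wedge (Pi.single a 1) z, wedge_isAlt _ _⟩) (h _)
  -- full at the opposite centre
  obtain ⟨xr, hxr⟩ := exists_omega (r2_mem (F := F) hn a c)
  have hI : r2 a c ∈ isometryGroup F (quadFormPlus n F) := omegaGL_le_isometryGroup _ (r2_mem hn a c)
  have h3 : (r2 a c).1 *ᵥ ee (Pi.single a (1 : F)) = ff (Pi.single a 1) := by
    rw [r2_mulVec, rr'_ee_ne (by simp [hac]), rr'_ee_self]
  have hF2 : Full (quadFormPlus n F) M (ee (Pi.single a 1)) := by
    intro y g' hy hg'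
    have h4 := hg'.conj hI
    rw [h3] at h4
    have h5 : pol (quadFormPlus n F) (ff (Pi.single a 1)) ((r2 a c).1 *ᵥ y) = 0 := by
      rw [← h3, pol_isometry _ hI, hy]
    obtain ⟨z, hz, hz2⟩ := hMem' _ (hF1 _ _ h5 h4)
    have h6 : ρ (xr⁻¹ * z * xr) = 1 := by
      rw [map_mul, map_mul, hz, mul_one, ← map_mul, inv_mul_cancel, map_one]
    have h7 := hMem _ h6
    have h8 : ((xr⁻¹ * z * xr : Omega F (quadFormPlus n F))).1.1 = g' := by
      have e3 : ((xr⁻¹ * z * xr : Omega F (quadFormPlus n F))).1.1 = (xr.1.1)⁻¹ * z.1.1 * xr.1.1 := rfl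
      rw [e3, hz2, hxr]
      group
    rwa [h8] at h7
  have hle := omega_le_of_full hQ (by simp; omega) hsa' hsa hF2 hF1 (by
    rw [pol_ff_ee]
    simp [Pi.single_apply])
  have hg : g.1.1 ∈ omegaGL (quadFormPlus n F) := ⟨g.1, g.2, rfl⟩
  obtain ⟨y, hy, hy2⟩ := hMem' _ (hle hg)
  have : y = g := Subtype.ext (Subtype.ext hy2)
  rw [← this]
  exact hy

end Triv

end Cfsg.Agent.Lib.OmDeg.PlusConj
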