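import Cfsg.Agent.Lib.OmDeg.PlusConj
import Cfsg.Agent.Lib.SLDeg.Class
import Cfsg.Agent.Lib.Orth.Forms

/-!
Counting pairs of singular vectors for the hyperbolic quadratic form.
-/

set_option autoImplicit false
set_option linter.unusedSectionVars false
set_option linter.unusedVariables false
set_option linter.unusedSimpArgs false
set_option linter.ambiguousOpen false

namespace Cfsg.Agent.Lib.OmDeg.PlusCount

open Matrix Module Cfsg Cfsg.Geo
open Cfsg.Agent.Lib.OmDeg.Alt Cfsg.Agent.Lib.OmDeg.Count Cfsg.Agent.Lib.OmDeg.Pairs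
open Cfsg.Agent.Lib.SLDeg.Tv
open Cfsg.Agent.Lib.OmDeg.Fam Cfsg.Agent.Lib.OmDeg.Wts Cfsg.Agent.Lib.OmDeg.Line Cfsg.Agent.Lib.OmDeg.Abs
open Cfsg.Agent.Lib.Geo.Basic Cfsg.Agent.Lib.Geo.QForm Cfsg.Agent.Lib.QuadFn
open Cfsg.Agent.Lib.GeoOmega.Basic Cfsg.Agent.Lib.GeoOmega.Eichler Cfsg.Agent.Lib.GeoOmega.Levi
open Cfsg.Agent.Lib.OmDeg.Plus Cfsg.Agent.Lib.OmDeg.PlusConj Cfsg.Agent.Lib.Orth.Levi
open scoped _root_.Classical MatrixGroups

variable {F : Type*} [Field F] [Fintype F] {n : ℕ}

/-- The number of pairs with vanishing dot product and first vector in a set containing zero. -/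
lemma card_dot (T : Finset (Fin n → F)) (h0 : (0 : Fin n → F) ∈ T) (hn : 1 ≤ n) :
    ((T ×ˢ (Finset.univ : Finset (Fin n → F))).filter (fun x => x.2 ⬝ᵥ x.1 = 0)).card =
      Fintype.card F ^ n + (T.card - 1) * Fintype.card F ^ (n - 1) := by
  rw [Finset.card_eq_sum_card_fiberwise (f := Prod.fst) (t := T)]
  · rw [← Finset.add_sum_erase _ _ h0]
    congr 1
    · have h1 : ((T ×ˢ (Finset.univ : Finset (Fin n → F))).filter (fun x => x.2 ⬝ᵥ x.1 = 0)).filter (fun x => x.1 = 0) =
          (Finset.univ : Finset (Fin n → F)).image (fun y => ((0 : Fin n → F), y)) := by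
        ext ⟨a, b⟩
        simp only [Finset.mem_filter, Finset.mem_product, Finset.mem_univ, true_and, and_true, Finset.mem_image,
          Prod.mk.injEq]
        constructor
        · rintro ⟨⟨h1, h2⟩, rfl⟩
          exact ⟨b, rfl, rfl⟩
        · rintro ⟨b', rfl, rfl⟩
          exact ⟨⟨h0, by simp⟩, rfl⟩
      rw [h1, Finset.card_image_of_injective _ (fun x y h => (Prod.mk.inj h).2), Finset.card_univ, Fintype.card_fun,
        Fintype.card_fin]
    · have h2 : ∀ a ∈ T.erase 0, (((T ×ˢ (Finset.univ : Finset (Fin n → F))).filter (fun x => x.2 ⬝ᵥ x.1 = 0)).filter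
          (fun x => x.1 = a)).card = Fintype.card F ^ (n - 1) := by
        intro a ha
        have ha0 := Finset.ne_of_mem_erase ha
        have haT := Finset.mem_of_mem_erase ha
        have h3 := Cfsg.Agent.Lib.SLDeg.Class.card_perp (F := F) (ι := Fin n) ha0
        rw [Fintype.card_fin] at h3
        rw [← h3]
        have h4 : ((T ×ˢ (Finset.univ : Finset (Fin n → F))).filter (fun x => x.2 ⬝ᵥ x.1 = 0)).filter (fun x => x.1 = a) =
            (Finset.univ.filter fun b : Fin n → F => b ⬝ᵥ a = 0).image (fun y => (a, y)) := by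
          ext ⟨a', b⟩
          simp only [Finset.mem_filter, Finset.mem_product, Finset.mem_univ, true_and, and_true, Finset.mem_image,
            Prod.mk.injEq]
          constructor
          · rintro ⟨⟨h1, h2⟩, rfl⟩
            exact ⟨b, h2, rfl, rfl⟩
          · rintro ⟨b', h2, rfl, rfl⟩
            exact ⟨⟨haT, h2⟩, rfl⟩
        rw [h4, Finset.card_image_of_injective _ (fun x y h => (Prod.mk.inj h).2)]
      rw [Finset.sum_congr rfl h2, Finset.sum_const, Finset.card_erase_of_mem h0, smul_eq_mul]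
  · intro x hx
    have := (Finset.mem_filter.1 (Finset.mem_coe.1 hx)).1
    exact Finset.mem_coe.2 (Finset.mem_product.1 this).1

/-- The identification of vectors with pairs. -/
def toPair : (Fin n ⊕ Fin n → F) ≃ (Fin n → F) × (Fin n → F) := Equiv.sumArrowEquivProdArrow _ _ _

lemma Q_toPair (v : Fin n ⊕ Fin n → F) : quadFormPlus n F v = (toPair v).2 ⬝ᵥ (toPair v).1 := by
  simp only [quadFormPlus, toPair, Equiv.sumArrowEquivProdArrow_apply_fst, Equiv.sumArrowEquivProdArrow_apply_snd, dotProduct,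
    Function.comp_apply]
  exact Finset.sum_congr rfl fun i _ => mul_comm _ _

/-- The number of singular vectors in a coordinate subspace. -/
lemma card_sing_of (T : Finset (Fin n → F)) (h0 : (0 : Fin n → F) ∈ T) (hn : 1 ≤ n) :
    (Finset.univ.filter (fun v : Fin n ⊕ Fin n → F => (fun i => v (Sum.inl i)) ∈ T ∧ quadFormPlus n F v = 0)).card =
      Fintype.card F ^ n + (T.card - 1) * Fintype.card F ^ (n - 1) := by
  rw [← card_dot T h0 hn]
  apply Finset.card_bij (fun v _ => toPair v)
  · intro v hv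
    simp only [Finset.mem_filter, Finset.mem_univ, true_and] at hv
    simp only [Finset.mem_filter, Finset.mem_product, Finset.mem_univ, and_true]
    exact ⟨hv.1, by rw [← Q_toPair]; exact hv.2⟩
  · intro v _ v' _ h
    exact toPair.injective h
  · intro x hx
    simp only [Finset.mem_filter, Finset.mem_product, Finset.mem_univ, and_true] at hx
    refine ⟨toPair.symm x, ?_, by simp⟩
    simp only [Finset.mem_filter, Finset.mem_univ, true_and]
    rw [Q_toPair, Equiv.apply_symm_apply]
    exact ⟨hx.1, hx.2⟩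

/-- The nonzero singular vectors. -/
noncomputable def Sing (n : ℕ) (F : Type*) [Field F] [Fintype F] : Finset (Fin n ⊕ Fin n → F) :=
  Finset.univ.filter (fun v => quadFormPlus n F v = 0 ∧ v ≠ 0)

/-- The number of nonzero singular vectors. -/
lemma card_Sing (hn : 1 ≤ n) : (Sing n F).card = (Fintype.card F ^ n - 1) * (Fintype.card F ^ (n - 1) + 1) := by
  have h1 := card_sing_of (F := F) Finset.univ (Finset.mem_univ _) hn
  rw [Finset.card_univ, Fintype.card_fun, Fintype.card_fin] at h1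
  have h2 : Sing n F = (Finset.univ.filter (fun v : Fin n ⊕ Fin n → F => (fun i => v (Sum.inl i)) ∈ (Finset.univ : Finset (Fin n → F)) ∧ quadFormPlus n F v = 0)).erase 0 := by
    ext v
    simp only [Sing, Finset.mem_filter, Finset.mem_univ, true_and, Finset.mem_erase, ne_eq]
    tauto
  rw [h2, Finset.card_erase_of_mem (by simp [quadFormPlus]), h1]
  set q := Fintype.card F
  have hq : 2 ≤ q := Fintype.one_lt_card
  have h3 : 1 ≤ q ^ n := Nat.one_le_pow _ _ (by omega)
  have h4 : q ^ n - 1 + 1 = q ^ n := by omega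
  zify [h3, Nat.one_le_iff_ne_zero.2 (pow_ne_zero n (by omega : q ≠ 0))]
  have h5 : 1 ≤ q ^ n + (q ^ n - 1) * q ^ (n - 1) := by omega
  push_cast [Nat.cast_sub h5, Nat.cast_sub h3]
  ring

/-- The second vectors of a pair, for a given first vector. -/
noncomputable def BB (u : Fin n ⊕ Fin n → F) : Finset (Fin n ⊕ Fin n → F) :=
  Finset.univ.filter (fun v => quadFormPlus n F v = 0 ∧ pol (quadFormPlus n F) u v = 0 ∧ wedge u v ≠ 0)

lemma single_ne {a : Fin n} : (Pi.single a (1 : F) : Fin n → F) ≠ 0 := by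
  intro h0
  have := congrFun h0 a
  simp at this

lemma ff_ne {x : Fin n → F} (h : x ≠ 0) : ff x ≠ 0 := by
  intro h0
  apply h
  funext i
  have := congrFun h0 (Sum.inr i)
  simpa using this

/-- The number of second vectors at a standard first vector. -/
lemma card_BB (hn : 2 ≤ n) (a : Fin n) : (BB (ff (Pi.single a (1 : F)))).card =
    Fintype.card F * ((Fintype.card F ^ (n - 1) - 1) * (Fintype.card F ^ (n - 2) + 1)) := by
  set T : Finset (Fin n → F) := Finset.univ.filter (fun s => s a = 0) with hT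
  have hT0 : (0 : Fin n → F) ∈ T := by simp [hT]
  have hTc : T.card = Fintype.card F ^ (n - 1) := by
    have := card_fix1 (F := F) a (0 : F)
    rwa [Fintype.card_fin] at this
  have h1 := card_sing_of (F := F) T hT0 (by omega)
  rw [hTc] at h1
  have hu0 : ff (Pi.single a (1 : F)) ≠ 0 := ff_ne single_ne
  have hpol : ∀ v : Fin n ⊕ Fin n → F, pol (quadFormPlus n F) (ff (Pi.single a (1 : F))) v = v (Sum.inl a) := by
    intro v
    rw [pol_plus]
    simp [Pi.single_apply]
  have h2 : BB (ff (Pi.single a (1 : F))) =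
      (Finset.univ.filter (fun v : Fin n ⊕ Fin n → F => (fun i => v (Sum.inl i)) ∈ T ∧ quadFormPlus n F v = 0)) \
        (Finset.univ.image (fun c : F => c • ff (Pi.single a (1 : F)))) := by
    ext v
    simp only [BB, Finset.mem_filter, Finset.mem_univ, true_and, Finset.mem_sdiff, Finset.mem_image, not_exists, hpol, hT]
    rw [Ne, wedge_eq_zero_iff hu0]
    constructor
    · rintro ⟨h3, h4, h5⟩
      refine ⟨⟨h4, h3⟩, fun c hc => h5 ⟨c, hc.symm⟩⟩
    · rintro ⟨⟨h4, h3⟩, h5⟩
      refine ⟨h3, h4, ?_⟩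
      rintro ⟨c, hc⟩
      exact h5 c hc.symm
  have hsub : (Finset.univ.image (fun c : F => c • ff (Pi.single a (1 : F)))) ⊆
      (Finset.univ.filter (fun v : Fin n ⊕ Fin n → F => (fun i => v (Sum.inl i)) ∈ T ∧ quadFormPlus n F v = 0)) := by
    intro v hv
    obtain ⟨c, _, rfl⟩ := Finset.mem_image.1 hv
    simp only [Finset.mem_filter, Finset.mem_univ, true_and, hT]
    refine ⟨by simp, ?_⟩
    simp [quadFormPlus]
  rw [h2, Finset.card_sdiff_of_subset hsub, h1, Finset.card_image_of_injective]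
  · rw [Finset.card_univ]
    set q := Fintype.card F
    have hq : 2 ≤ q := Fintype.one_lt_card
    obtain ⟨m, rfl⟩ : ∃ m, n = m + 2 := ⟨n - 2, by omega⟩
    simp only [show m + 2 - 1 = m + 1 from rfl, show m + 2 - 2 = m from rfl]
    have h3 : 1 ≤ q ^ (m + 1) := Nat.one_le_pow _ _ (by omega)
    have h4 : q ^ (m + 2) = q * q ^ (m + 1) := by rw [pow_succ]; ring
    have h5 : q ^ (m + 1) = q * q ^ m := by rw [pow_succ]; ring
    have h6 : q ≤ q ^ (m + 2) + (q ^ (m + 1) - 1) * q ^ (m + 1) := by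
      have : q ≤ q ^ (m + 2) := by
        rw [h4]
        exact Nat.le_mul_of_pos_right _ (by omega)
      omega
    zify [h3, h6]
    push_cast [Nat.cast_sub h3]
    ring
  · intro c c' h
    have h3 := congrFun h (Sum.inr a)
    simpa using h3

/-- Isometries preserve the data. -/
lemma card_BB_move {g : GL (Fin n ⊕ Fin n) F} (hg : g ∈ isometryGroup F (quadFormPlus n F)) (u : Fin n ⊕ Fin n → F) :
    (BB u).card = (BB (g.1 *ᵥ u)).card := by
  have hinj : Function.Injective (fun v : Fin n ⊕ Fin n → F => g.1 *ᵥ v) := by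
    intro v v' h
    have := congrArg (fun w => (g⁻¹).1 *ᵥ w) h
    simpa [Matrix.mulVec_mulVec] using this
  have hQg := (mem_isometryGroup_iff (quadFormPlus n F) g).mp hg
  have hg' : g⁻¹ ∈ isometryGroup F (quadFormPlus n F) := (isometryGroup F _).inv_mem hg
  have hQg' := (mem_isometryGroup_iff (quadFormPlus n F) g⁻¹).mp hg'
  have hw0 : ∀ x y : Fin n ⊕ Fin n → F, wedge x y ≠ 0 → wedge (g.1 *ᵥ x) (g.1 *ᵥ y) ≠ 0 := by
    intro x y h h0
    apply h
    have h1 := congrArg (act (g⁻¹).1) h0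
    rw [← act_wedge, ← act_mul, ← Units.val_mul, inv_mul_cancel, Units.val_one, act_one] at h1
    rw [h1]
    simp [act]
  have hw1 : ∀ x y : Fin n ⊕ Fin n → F, wedge x y ≠ 0 → wedge ((g⁻¹).1 *ᵥ x) ((g⁻¹).1 *ᵥ y) ≠ 0 := by
    intro x y h h0
    apply h
    have h1 := congrArg (act g.1) h0
    rw [← act_wedge, ← act_mul, ← Units.val_mul, mul_inv_cancel, Units.val_one, act_one] at h1
    rw [h1]
    simp [act]
  apply Finset.card_bij (fun v _ => g.1 *ᵥ v)
  · intro v hv
    simp only [BB, Finset.mem_filter, Finset.mem_univ, true_and] at hv ⊢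
    refine ⟨by rw [hQg]; exact hv.1, by rw [pol_isometry g hg]; exact hv.2.1, hw0 _ _ hv.2.2⟩
  · intro v _ v' _ h
    exact hinj h
  · intro v hv
    simp only [BB, Finset.mem_filter, Finset.mem_univ, true_and] at hv
    have hgi : g.1 *ᵥ ((g⁻¹).1 *ᵥ v) = v := mulVec_inv_mulVec g v
    refine ⟨(g⁻¹).1 *ᵥ v, ?_, hgi⟩
    simp only [BB, Finset.mem_filter, Finset.mem_univ, true_and]
    have hu : (g⁻¹).1 *ᵥ (g.1 *ᵥ u) = u := inv_mulVec_mulVec g u
    refine ⟨by rw [hQg']; exact hv.1, ?_, ?_⟩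
    · have := pol_isometry g⁻¹ hg' (g.1 *ᵥ u) v
      rw [hu] at this
      rw [this]
      exact hv.2.1
    · have := hw1 _ _ hv.2.2
      rwa [hu] at this

open Cfsg.Agent.Lib.Orth.Forms Cfsg.Agent.Lib.Classical.MatrixBridge

omit [Fintype F] in
/-- An isometry as an element of `GL`. -/
lemma toGL_mem (g : (Fin n ⊕ Fin n → F) ≃ₗ[F] (Fin n ⊕ Fin n → F))
    (hg : g ∈ Cfsg.Agent.Lib.Witt.Quadratic.isoGroup (plusForm n F)) :
    glToLin.symm g ∈ isometryGroup F (quadFormPlus n F) := by
  rw [mem_isometryGroup_iff]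
  intro v
  rw [glToLin_symm_mulVec]
  exact hg v

omit [Fintype F] in
/-- Witt's theorem for one vector. -/
lemma witt1 {u u' : Fin n ⊕ Fin n → F} (hu : u ≠ 0) (hu' : u' ≠ 0) (hQ : quadFormPlus n F u = 0)
    (hQ' : quadFormPlus n F u' = 0) :
    ∃ g ∈ isometryGroup F (quadFormPlus n F), g.1 *ᵥ u = u' := by
  have hn := nd_plus (n := n) (F := F)
  obtain ⟨g, hg, hgu⟩ := Cfsg.Agent.Lib.Witt.Quadratic.witt_family (Q := plusForm n F) (plusForm_nondeg n)
    (ι := Unit) (fun _ => u) (fun _ => u') (linearIndependent_unique_iff.2 hu) (linearIndependent_unique_iff.2 hu')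
    (fun _ _ => by
      show pol (quadFormPlus n F) u u = pol (quadFormPlus n F) u' u'
      rw [pol_singular hn hQ, pol_singular hn hQ'])
    (fun _ => by
      show quadFormPlus n F u = quadFormPlus n F u'
      rw [hQ, hQ'])
  refine ⟨glToLin.symm g, toGL_mem g hg, ?_⟩
  rw [glToLin_symm_mulVec]
  exact hgu ()

omit [Fintype F] in
/-- Witt's theorem for a pair of vectors. -/
lemma witt2 {u v u' v' : Fin n ⊕ Fin n → F} (h : wedge u v ≠ 0) (h' : wedge u' v' ≠ 0)
    (hu : quadFormPlus n F u = 0) (hv : quadFormPlus n F v = 0) (huv : pol (quadFormPlus n F) u v = 0)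
    (hu' : quadFormPlus n F u' = 0) (hv' : quadFormPlus n F v' = 0) (huv' : pol (quadFormPlus n F) u' v' = 0) :
    ∃ g ∈ isometryGroup F (quadFormPlus n F), g.1 *ᵥ u = u' ∧ g.1 *ᵥ v = v' := by
  have hn := nd_plus (n := n) (F := F)
  have hli : ∀ {a b : Fin n ⊕ Fin n → F}, wedge a b ≠ 0 → LinearIndependent F ![a, b] := by
    intro a b hab
    rw [LinearIndependent.pair_iff]
    intro s t hst
    exact combo_inj hab (a := s) (b := t) (a' := 0) (b' := 0) (by simpa using hst)
  obtain ⟨g, hg, hgu⟩ := Cfsg.Agent.Lib.Witt.Quadratic.witt_family (Q := plusForm n F) (plusForm_nondeg n)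
    ![u, v] ![u', v'] (hli h) (hli h')
    (fun i j => by
      show pol (quadFormPlus n F) _ _ = pol (quadFormPlus n F) _ _
      fin_cases i <;> fin_cases j <;> simp only [Fin.isValue, Fin.zero_eta, Fin.mk_one, Matrix.cons_val_zero, Matrix.cons_val_one]
      · rw [pol_singular hn hu, pol_singular hn hu']
      · rw [huv, huv']
      · rw [pol_symm hn, huv, pol_symm hn, huv']
      · rw [pol_singular hn hv, pol_singular hn hv'])
    (fun i => by
      show quadFormPlus n F _ = quadFormPlus n F _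
      fin_cases i <;> simp only [Fin.isValue, Fin.zero_eta, Fin.mk_one, Matrix.cons_val_zero, Matrix.cons_val_one]
      · rw [hu, hu']
      · rw [hv, hv'])
  refine ⟨glToLin.symm g, toGL_mem g hg, ?_, ?_⟩
  · rw [glToLin_symm_mulVec]
    exact hgu 0
  · rw [glToLin_symm_mulVec]
    exact hgu 1

/-- The pairs of singular vectors spanning a totally singular plane. -/
noncomputable def PP (n : ℕ) (F : Type*) [Field F] [Fintype F] : Finset ((Fin n ⊕ Fin n → F) × (Fin n ⊕ Fin n → F)) :=
  Finset.univ.filter (fun x => quadFormPlus n F x.1 = 0 ∧ quadFormPlus n F x.2 = 0 ∧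
    pol (quadFormPlus n F) x.1 x.2 = 0 ∧ wedge x.1 x.2 ≠ 0)

lemma mem_PP {x : (Fin n ⊕ Fin n → F) × (Fin n ⊕ Fin n → F)} : x ∈ PP n F ↔ quadFormPlus n F x.1 = 0 ∧
    quadFormPlus n F x.2 = 0 ∧ pol (quadFormPlus n F) x.1 x.2 = 0 ∧ wedge x.1 x.2 ≠ 0 := by
  simp [PP]

/-- The number of pairs. -/
theorem card_PP (hn : 2 ≤ n) : (PP n F).card = (Fintype.card F ^ n - 1) * (Fintype.card F ^ (n - 1) + 1) *
    (Fintype.card F * ((Fintype.card F ^ (n - 1) - 1) * (Fintype.card F ^ (n - 2) + 1))) := by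
  let a : Fin n := ⟨0, by omega⟩
  rw [← card_BB (F := F) hn a, ← card_Sing (F := F) (by omega),
    Finset.card_eq_sum_card_fiberwise (f := Prod.fst) (s := PP n F) (t := Sing n F)]
  · have h : ∀ u ∈ Sing n F, ((PP n F).filter (fun x => x.1 = u)).card = (BB (ff (Pi.single a (1 : F)))).card := by
      intro u hu
      simp only [Sing, Finset.mem_filter, Finset.mem_univ, true_and] at hu
      obtain ⟨g, hg, hgu⟩ := witt1 (ff_ne (single_ne (a := a) (F := F))) hu.2 (Q_ff _) hu.1
      rw [card_BB_move hg, hgu]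
      have h1 : (PP n F).filter (fun x => x.1 = u) = (BB u).image (fun v => (u, v)) := by
        ext ⟨u', v⟩
        simp only [Finset.mem_filter, mem_PP, Finset.mem_image, BB, Finset.mem_univ, true_and, Prod.mk.injEq]
        constructor
        · rintro ⟨⟨h2, h3, h4, h5⟩, rfl⟩
          exact ⟨v, ⟨h3, h4, h5⟩, rfl, rfl⟩
        · rintro ⟨v', ⟨h3, h4, h5⟩, rfl, rfl⟩
          exact ⟨⟨hu.1, h3, h4, h5⟩, rfl⟩
      rw [h1, Finset.card_image_of_injective _ (fun x y h => (Prod.mk.inj h).2)]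
    rw [Finset.sum_congr rfl h, Finset.sum_const, smul_eq_mul]
  · rintro ⟨u, v⟩ hx
    have hx' := mem_PP.1 (Finset.mem_coe.1 hx)
    simp only [Sing, Finset.coe_filter, Finset.mem_univ, true_and, Set.mem_ofPred_eq]
    refine ⟨hx'.1, ?_⟩
    rintro rfl
    apply hx'.2.2.2
    ext i j
    simp

end Cfsg.Agent.Lib.OmDeg.PlusCount
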